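import Mathlib
import Cfsg.Agent.Lib.Helper26.MCI.Defs

set_option autoImplicit false

/-!
MCI (S2132) package [RHO]: the action of `S_8` on the 35 splittings `4 | 4` of `Fin 8`.
A splitting is modelled as a colouring `c : Fin 8 → Bool` with `c 0 = true` and four `true`s.
-/

namespace Cfsg.Agent.Lib.Helper87.MCI

open Cfsg.Agent.Lib.Helper26.MCI

/-- number of `true` values -/
def cnt (c : Fin 8 → Bool) : ℕ := ∑ k : Fin 8, (c k).toNat

/-- colourings of splittings -/
def IsSplit (c : Fin 8 → Bool) : Prop := c 0 = true ∧ cnt c = 4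

instance : DecidablePred IsSplit := fun c => by unfold IsSplit; infer_instance

/-- normalisation: make the colour of `0` true -/
def nrm (c : Fin 8 → Bool) : Fin 8 → Bool := if c 0 = true then c else fun k => !(c k)

theorem nrm_zero (c : Fin 8 → Bool) : nrm c 0 = true := by
  unfold nrm
  by_cases h : c 0 = true
  · rw [if_pos h]; exact h
  · rw [if_neg h]; simpa using h

theorem cnt_not (c : Fin 8 → Bool) : cnt (fun k => !(c k)) + cnt c = 8 := by
  unfold cnt
  rw [← Finset.sum_add_distrib]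
  have h : ∀ k : Fin 8, (!(c k)).toNat + (c k).toNat = 1 := by
    intro k; cases c k <;> rfl
  simp [h]

theorem cnt_nrm (c : Fin 8 → Bool) (h : cnt c = 4) : cnt (nrm c) = 4 := by
  unfold nrm
  by_cases h0 : c 0 = true
  · rw [if_pos h0]; exact h
  · rw [if_neg h0]
    have := cnt_not c
    omega

theorem cnt_comp (c : Fin 8 → Bool) (σ : Equiv.Perm (Fin 8)) :
    cnt (fun k => c (σ k)) = cnt c := by
  unfold cnt
  exact Equiv.sum_comp σ (fun k => (c k).toNat)

theorem nrm_of_zero (c : Fin 8 → Bool) (h : c 0 = true) : nrm c = c := by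
  unfold nrm; rw [if_pos h]

theorem nrm_of_not_zero (c : Fin 8 → Bool) (h : ¬ c 0 = true) : nrm c = fun k => !(c k) := by
  unfold nrm; rw [if_neg h]

theorem nrm_not (c : Fin 8 → Bool) : nrm (fun k => !(c k)) = nrm c := by
  by_cases h0 : c 0 = true
  · rw [nrm_of_zero c h0, nrm_of_not_zero _ (by simp [h0])]
    funext k
    simp
  · rw [nrm_of_not_zero c h0, nrm_of_zero _ (by simpa using h0)]

theorem nrm_nrm_comp (c : Fin 8 → Bool) (s : Fin 8 → Fin 8) :
    nrm (fun k => nrm c (s k)) = nrm (fun k => c (s k)) := by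
  by_cases h0 : c 0 = true
  · rw [nrm_of_zero c h0]
  · rw [nrm_of_not_zero c h0]
    exact nrm_not (fun k => c (s k))

/-- the type of splittings -/
abbrev Spl : Type := {c : Fin 8 → Bool // IsSplit c}

/-- the action of a permutation on a splitting -/
def act (σ : Equiv.Perm (Fin 8)) (c : Spl) : Spl :=
  ⟨nrm (fun k => c.1 (σ.symm k)), nrm_zero _, cnt_nrm _ (by rw [cnt_comp]; exact c.2.2)⟩

instance : MulAction (Equiv.Perm (Fin 8)) Spl where
  smul := act
  one_smul c := by
    apply Subtype.ext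
    show nrm (fun k => c.1 ((1 : Equiv.Perm (Fin 8)).symm k)) = c.1
    exact nrm_of_zero c.1 c.2.1
  mul_smul σ τ c := by
    apply Subtype.ext
    show nrm (fun k => c.1 ((σ * τ).symm k)) =
      nrm (fun k => nrm (fun j => c.1 (τ.symm j)) (σ.symm k))
    rw [nrm_nrm_comp (fun j => c.1 (τ.symm j)) (fun k => σ.symm k)]
    rfl

/-- the colouring of the `i`-th splitting -/
def enc (i : Fin 35) : Fin 8 → Bool := fun k => (splitMask i).testBit k.1

theorem enc_split : ∀ i : Fin 35, IsSplit (enc i) := by decide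

/-- the bit mask of a colouring -/
def msk (c : Fin 8 → Bool) : ℕ :=
  (c 0).toNat + 2 * (c 1).toNat + 4 * (c 2).toNat + 8 * (c 3).toNat + 16 * (c 4).toNat +
    32 * (c 5).toNat + 64 * (c 6).toNat + 128 * (c 7).toNat

/-- the index of a mask -/
def idx (m : ℕ) : Fin 35 := ⟨splitMasks.idxOf m % 35, Nat.mod_lt _ (by norm_num)⟩

theorem idx_enc : ∀ i : Fin 35, idx (msk (enc i)) = i := by decide

theorem enc_idx_aux : ∀ b0 b1 b2 b3 b4 b5 b6 b7 : Bool,
    IsSplit ![b0, b1, b2, b3, b4, b5, b6, b7] → ∀ k : Fin 8,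
    enc (idx (msk ![b0, b1, b2, b3, b4, b5, b6, b7])) k = ![b0, b1, b2, b3, b4, b5, b6, b7] k := by
  decide

theorem enc_idx (c : Spl) : enc (idx (msk c.1)) = c.1 := by
  have hc : c.1 = ![c.1 0, c.1 1, c.1 2, c.1 3, c.1 4, c.1 5, c.1 6, c.1 7] := by
    funext k; fin_cases k <;> rfl
  have h := enc_idx_aux (c.1 0) (c.1 1) (c.1 2) (c.1 3) (c.1 4) (c.1 5) (c.1 6) (c.1 7)
    (by rw [← hc]; exact c.2)
  rw [← hc] at h
  funext k
  exact h k

/-- the 35 splittings, numbered -/
def splEquiv : Fin 35 ≃ Spl where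
  toFun i := ⟨enc i, enc_split i⟩
  invFun c := idx (msk c.1)
  left_inv i := idx_enc i
  right_inv c := Subtype.ext (enc_idx c)

/-- the action of `S_8` on the 35 splittings -/
def rho : Equiv.Perm (Fin 8) →* Equiv.Perm (Fin 35) :=
  (splEquiv.symm.permCongrHom).toMonoidHom.comp (MulAction.toPermHom (Equiv.Perm (Fin 8)) Spl)

theorem rho_apply (σ : Equiv.Perm (Fin 8)) (i : Fin 35) :
    rho σ i = idx (msk (nrm (fun k => enc i (σ.symm k)))) := rfl

theorem rho_g1 : ∀ i : Fin 35, ((rho g1 i : Fin 35) : ℕ) = l1.getD i.1 0 := by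
  intro i; rw [rho_apply]; revert i; decide

theorem rho_g2 : ∀ i : Fin 35, ((rho g2 i : Fin 35) : ℕ) = l2.getD i.1 0 := by
  intro i; rw [rho_apply]; revert i; decide

theorem rho_injective : Function.Injective rho := by
  rw [← MonoidHom.ker_eq_bot_iff]
  by_contra hne
  haveI : Nontrivial ↥rho.ker := (Subgroup.nontrivial_iff_ne_bot _).2 hne
  have hle := Equiv.Perm.alternatingGroup_le_of_normal (α := Fin 8) (by simp) (N := rho.ker) this
  have hg1 : g1 ∈ alternatingGroup (Fin 8) := by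
    rw [Equiv.Perm.mem_alternatingGroup]
    unfold g1
    rw [Equiv.Perm.sign_mul, Equiv.Perm.sign_swap (by decide), Equiv.Perm.sign_swap (by decide)]
    rfl
  have h1 : rho g1 = 1 := hle hg1
  have h2 := rho_g1 5
  rw [h1] at h2
  exact absurd h2 (by decide)

theorem pkgRho : PkgRho := ⟨rho, rho_injective, rho_g1, rho_g2⟩

end Cfsg.Agent.Lib.Helper87.MCI
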