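import Mathlib
import Cfsg.Agent.Lib.Helper26.MCI.Defs

set_option autoImplicit false

/-!
MCI (S2132) package [TRANSPORT]: the statement is invariant under isomorphism.
-/

namespace Cfsg.Agent.Lib.Helper87.MCI

open Cfsg.Agent.Lib.Helper26.MCI

theorem mem_center_equiv {H H' : Type*} [Group H] [Group H'] (e : H ≃* H') (x : H) :
    e x ∈ Subgroup.center H' ↔ x ∈ Subgroup.center H := by
  rw [Subgroup.mem_center_iff, Subgroup.mem_center_iff]
  constructor
  · intro h g
    apply e.injective
    rw [map_mul, map_mul]
    exact h (e g)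
  · intro h g
    obtain ⟨g0, rfl⟩ := e.surjective g
    rw [← map_mul, ← map_mul, h g0]

theorem map_center_equiv {H H' : Type*} [Group H] [Group H'] (e : H ≃* H') :
    (Subgroup.center H).map (e : H →* H') = Subgroup.center H' := by
  ext y
  rw [Subgroup.mem_map]
  constructor
  · rintro ⟨x, hx, rfl⟩
    exact (mem_center_equiv e x).2 hx
  · intro hy
    refine ⟨e.symm y, ?_, ?_⟩
    · rw [← mem_center_equiv e]
      simpa using hy
    · simp

/-- `IsNonsplitDoubleCover` is invariant under isomorphism of the covering group. -/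
theorem nsdc_congr {H H' K : Type*} [Group H] [Group H'] [Group K] (e : H ≃* H')
    (h : Cfsg.IsNonsplitDoubleCover H K) : Cfsg.IsNonsplitDoubleCover H' K := by
  obtain ⟨h1, ⟨f⟩, h3⟩ := h
  refine ⟨?_, ⟨?_⟩, ?_⟩
  · calc Nat.card (Subgroup.center H')
        = Nat.card ((Subgroup.center H).map (e : H →* H')) := by rw [map_center_equiv]
      _ = Nat.card (Subgroup.center H) :=
          (Nat.card_congr (e.subgroupMap (Subgroup.center H)).toEquiv).symm
      _ = 2 := h1
  · exact (QuotientGroup.congr (Subgroup.center H) (Subgroup.center H') e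
      (map_center_equiv e)).symm.trans f
  · intro L' hL'
    apply h3 (L'.comap (e : H →* H'))
    apply Subgroup.isComplement'_of_disjoint_and_mul_eq_univ
    · rw [Subgroup.disjoint_def]
      intro x hx hxL
      have hd := hL'.disjoint
      rw [Subgroup.disjoint_def] at hd
      have h5 : e x = 1 := hd ((mem_center_equiv e x).2 hx) hxL
      exact e.injective (by rw [h5, map_one])
    · rw [Set.eq_univ_iff_forall]
      intro g
      obtain ⟨⟨⟨z', hz'⟩, ⟨l', hl'⟩⟩, hzl, -⟩ :=
        (Subgroup.isComplement_iff_existsUnique.1 hL') (e g)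
      rw [Set.mem_mul]
      refine ⟨e.symm z', ?_, e.symm l', ?_, ?_⟩
      · rw [SetLike.mem_coe, ← mem_center_equiv e]
        simpa using hz'
      · rw [SetLike.mem_coe, Subgroup.mem_comap]
        simpa using hl'
      · apply e.injective
        rw [map_mul]
        simpa using hzl

/-- the isomorphism of centralizers induced by an isomorphism -/
def centEquiv {A B : Type*} [Group A] [Group B] (e : A ≃* B) (t : A) :
    ↥(Subgroup.centralizer ({t} : Set A)) ≃* ↥(Subgroup.centralizer ({e t} : Set B)) where
  toFun x := ⟨e x.1, by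
    have h := x.2
    rw [Subgroup.mem_centralizer_singleton_iff] at h ⊢
    rw [← map_mul, ← map_mul, h]⟩
  invFun y := ⟨e.symm y.1, by
    have h := y.2
    rw [Subgroup.mem_centralizer_singleton_iff] at h ⊢
    apply e.injective
    rw [map_mul, map_mul]
    simpa using h⟩
  left_inv x := by apply Subtype.ext; simp
  right_inv y := by apply Subtype.ext; simp
  map_mul' x y := by apply Subtype.ext; simp

theorem pkgTransport : PkgTransport := by
  intro A B _ _ e hA
  obtain ⟨h1, t, ht, hnc⟩ := hA
  refine ⟨?_, e t, ?_, ?_⟩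
  · intro x y hx hy
    have hx' : orderOf (e.symm x) = 2 := by rw [MulEquiv.orderOf_eq]; exact hx
    have hy' : orderOf (e.symm y) = 2 := by rw [MulEquiv.orderOf_eq]; exact hy
    have h2 := MonoidHom.map_isConj e.toMonoidHom (h1 _ _ hx' hy')
    simpa using h2
  · rw [MulEquiv.orderOf_eq]; exact ht
  · exact nsdc_congr (centEquiv e t) hnc

end Cfsg.Agent.Lib.Helper87.MCI
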